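import Cfsg.Agent.TH.Cl.B2.Main
import Cfsg.Agent.TH.Sv.TriE

/-!
# S3541, `Sp₄(2^a)` with a graph automorphism: `boxB2 : Sims → BoxB2` (helper63)
-/

set_option autoImplicit false

namespace Cfsg.Agent.TH.Cl

theorem boxB2 (s : Sims) : BoxB2 := boxB2_of boxTri Sv.boxEl s

end Cfsg.Agent.TH.Cl
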